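import Cfsg.Agent.H324.AP.Dim
import Cfsg.Agent.H477.HC.Form

/-!
# S4933, box H2 (classical input of `height_lemma`), shared definitions (helper920)

`V = C_V(P) ⊥ D 0 ⊥ D 1`, `P` the abelian Sylow `p`-subgroup of the isometry group `G`, `P = Q_0 × Q_1`,
`Q_i = triv P (D i)ᗮ` cyclic of order `p ^ a`, `finrank (D i) = 2 c`.

* `RegE P` : the regular elements `x` of `P`: every element of `P` is a polynomial in `x`;
* `TwoB p a c h P D` : the frame with two blocks.
-/

set_option autoImplicit false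

namespace Cfsg.Agent.H920.HT

open Submodule Module Polynomial Cfsg.Agent.H324.AP

universe u v

variable {F : Type u} [Field F] {V : Type v} [AddCommGroup V] [Module F V]

/-- the regular elements: every element of `P` is a polynomial in `x` -/
def RegE (P : Subgroup (V ≃ₗ[F] V)) : Set (V ≃ₗ[F] V) :=
  {x | x ∈ P ∧ ∀ y ∈ P, ∃ f : F[X], toE y = aeval (toE x) f}

/-- two blocks of dimension `2 c`, each element `≠ 1` of `Q_i` is irreducible on `D i` -/
structure TwoB {τ : F →+* F} {B : V → V → F} {G : Subgroup (V ≃ₗ[F] V)} (p a c : ℕ) (h : SplF τ B G)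
    (P : Subgroup (V ≃ₗ[F] V)) (D : Fin 2 → Submodule F V) : Prop where
  syl : Syl p G P
  ab : ∀ x ∈ P, ∀ y ∈ P, x * y = y * x
  frm : Frm h P D
  dec : Dec P D (fun i => h.perp (D i))
  dim : ∀ i, finrank F (D i) = 2 * c
  card : ∀ i, Nat.card (triv P (h.perp (D i))) = p ^ a
  irr : ∀ i, ∀ y ∈ triv P (h.perp (D i)), y ≠ 1 → ∀ X : Submodule F V, X ≤ D i → (∀ m ∈ X, y m ∈ X) →
    X = ⊥ ∨ X = D i

end Cfsg.Agent.H920.HT
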