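import Cfsg.Agent.H920.HT.RegDefs

/-!
# S4933, box H2, piece (A) (helper920): the frame with two blocks

* `splF` : the isometry group of a `CForm`;
* `syl_map` : Sylow subgroups of a subgroup of `GL(V)`;
* `exists_twoB` : `2 c = ord_p(q)`, `|P| = p ^ (2 a)`, `p ^ (a + 1) ∤ q ^ c + 1`, `finrank V < 6 c`: `TwoB p a c h P D`.
-/

set_option autoImplicit false
set_option linter.unusedSectionVars false

namespace Cfsg.Agent.H920.HT

open Submodule Module Polynomial Cfsg.Agent.H324.AP Cfsg.Agent.H477.HC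

universe u v

section cform

variable {K : Type u} [Field K] {V : Type v} [AddCommGroup V] [Module K V]

theorem splF (Fm : CForm K V) : SplF Fm.σ Fm.B Fm.iso where
  add_left := Fm.B_add_left
  add_right := Fm.B_add_right
  smul_left := Fm.B_smul_left
  smul_right a u v := Fm.B_smul_right a u v
  refl _ _ h := Fm.B_eq_zero h
  nd := Fm.nondeg
  pres g hg := hg.1
  split g hg g' U W hUW ho hU hgU hgW := by
    have key : ∀ v : V, ∃ x ∈ U, ∃ w ∈ W, x + w = v := fun v => by
      have hv : v ∈ U ⊔ W := by rw [hUW]; trivial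
      exact Submodule.mem_sup.1 hv
    constructor
    · intro u v
      obtain ⟨x, hx, w, hw, rfl⟩ := key u
      obtain ⟨y, hy, z, hz, rfl⟩ := key v
      rw [map_add, map_add, hgU x hx, hgU y hy, hgW w hw, hgW z hz]
      rw [Fm.B_add_left, Fm.B_add_right, Fm.B_add_right, Fm.B_add_left, Fm.B_add_right, Fm.B_add_right, hg.1 x y,
        ho _ (hU x hx) z hz, Fm.B_eq_zero (ho _ (hU y hy) w hw), ho x hx z hz, Fm.B_eq_zero (ho y hy w hw)]
    · intro v
      obtain ⟨x, hx, w, hw, rfl⟩ := key v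
      rw [map_add, hgU x hx, hgW w hw, Fm.Q_add, Fm.Q_add, hg.2 x, ho _ (hU x hx) w hw, ho x hx w hw]

end cform

/-- field automorphisms of finite fields -/
theorem exists_frob {K : Type u} [Field K] [Finite K] (σ : K →+* K) :
    ∃ (r s : ℕ) (_ : Fact r.Prime) (_ : CharP K r), ∀ a, σ a = a ^ (r ^ s) := by
  obtain ⟨r, hr⟩ := CharP.exists K
  have hrp : Fact r.Prime := ⟨(CharP.char_is_prime_or_zero K r).resolve_right (CharP.char_ne_zero_of_finite K r)⟩
  let _ : Algebra (ZMod r) K := ZMod.algebra K r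
  have := Fintype.ofFinite K
  let e0 : K →ₐ[ZMod r] K :=
    { σ with
      commutes' := fun x => by
        exact RingHom.congr_fun (Subsingleton.elim (σ.comp (algebraMap (ZMod r) K)) (algebraMap (ZMod r) K)) x }
  let e : K ≃ₐ[ZMod r] K := AlgEquiv.ofBijective e0 (Finite.injective_iff_bijective.1 σ.injective)
  obtain ⟨n, hn⟩ := (FiniteField.bijective_frobeniusAlgEquivOfAlgebraic_pow (ZMod r) K).2 e
  refine ⟨r, n, hrp, hr, fun a => ?_⟩
  have h1 : e a = a ^ (Fintype.card (ZMod r)) ^ (n : ℕ) := by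
    rw [← hn, AlgEquiv.coe_pow, FiniteField.coe_frobeniusAlgEquivOfAlgebraic_iterate]
  rw [ZMod.card] at h1
  exact h1

theorem syl_map {F : Type u} [Field F] {V : Type v} [AddCommGroup V] [Module F V] {p : ℕ}
    (G : Subgroup (V ≃ₗ[F] V)) (P : Sylow p G) : Syl p G ((P : Subgroup G).map G.subtype) where
  le := by
    rintro _ ⟨x, -, rfl⟩
    exact x.2
  isP := P.2.map _
  max Q hQG hQ hle := by
    have h1 : (P : Subgroup G) ≤ Q.subgroupOf G := by
      intro x hx
      exact hle ⟨x, hx, rfl⟩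
    have h2 : IsPGroup p (Q.subgroupOf G) := hQ.comap_of_injective _ G.subtype_injective
    have h3 := P.3 h2 h1
    rw [← h3, Subgroup.subgroupOf_map_subtype, inf_eq_left.2 hQG]

/-- free actions -/
theorem card_dvd_of_free {A X : Type*} [Group A] [Finite A] [Finite X] [MulAction A X]
    (h : ∀ (g : A) (x : X), g • x = x → g = 1) : Nat.card A ∣ Nat.card X := by
  classical
  have := Fintype.ofFinite A
  have := Fintype.ofFinite X
  have := fun x : X => Fintype.ofFinite (MulAction.stabilizer A x)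
  have := Fintype.ofFinite (MulAction.orbitRel.Quotient A X)
  rw [Nat.card_eq_fintype_card, Nat.card_eq_fintype_card, MulAction.card_eq_sum_card_group_div_card_stabilizer A X]
  apply Finset.dvd_sum
  intro ω _
  have h1 : Fintype.card (MulAction.stabilizer A (Quotient.out ω)) = 1 := by
    rw [Fintype.card_eq_one_iff]
    refine ⟨1, fun g => ?_⟩
    apply Subtype.ext
    exact h _ _ g.2
  rw [h1, Nat.div_one]

/-- number theory -/
theorem pow_dvd_of {p q c b d : ℕ} (hp : p.Prime) (hp2 : p ≠ 2) (hc : 0 < c)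
    (ho : orderOf ((q : ℕ) : ZMod p) = 2 * c) (hd : d = 2 * c ∨ d = 4 * c) (h : p ^ b ∣ q ^ d - 1) :
    p ^ b ∣ q ^ c + 1 := by
  have : Fact p.Prime := ⟨hp⟩
  have hq : 0 < q := by
    rcases Nat.eq_zero_or_pos q with h0 | h0
    · exfalso
      rw [h0, Nat.cast_zero] at ho
      have h1 : orderOf (0 : ZMod p) = 0 := by
        rw [orderOf_eq_zero_iff']
        intro n hn h2
        rw [zero_pow hn.ne'] at h2
        exact zero_ne_one h2
      omega
    · exact h0
  have h1 : p ^ b ∣ q ^ (4 * c) - 1 := by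
    rcases hd with rfl | rfl
    · refine h.trans ?_
      have h2 : 2 * c * 2 = 4 * c := by ring
      have h3 := Nat.sub_one_dvd_pow_sub_one (q ^ (2 * c)) 2
      rwa [← pow_mul, h2] at h3
    · exact h
  have hqc : 1 ≤ q ^ c := Nat.one_le_pow _ _ hq
  have h2 : q ^ (4 * c) - 1 = (q ^ c + 1) * ((q ^ c - 1) * (q ^ (2 * c) + 1)) := by
    obtain ⟨x, hx⟩ : ∃ x, q ^ c = x + 1 := ⟨q ^ c - 1, by omega⟩
    have e1 : q ^ (4 * c) = (q ^ c) ^ 4 := by rw [← pow_mul, mul_comm]
    have e2 : q ^ (2 * c) = (q ^ c) ^ 2 := by rw [← pow_mul, mul_comm]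
    rw [e1, e2, hx, Nat.add_sub_cancel, Nat.sub_eq_iff_eq_add (Nat.one_le_pow _ _ (by omega))]
    ring
  rw [h2] at h1
  have h3 : ¬ p ∣ q ^ c - 1 := by
    intro h3
    have h4 : ((q : ℕ) : ZMod p) ^ c = 1 := by
      have h5 := (ZMod.natCast_eq_zero_iff _ _).2 h3
      rw [Nat.cast_sub hqc, Nat.cast_pow, Nat.cast_one, sub_eq_zero] at h5
      exact h5
    have h5 := Nat.le_of_dvd hc (orderOf_dvd_of_pow_eq_one h4)
    omega
  have h4 : ¬ p ∣ q ^ (2 * c) + 1 := by
    intro h4
    have h5 := (ZMod.natCast_eq_zero_iff _ _).2 h4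
    have h6 : ((q : ℕ) : ZMod p) ^ (2 * c) = 1 := by rw [← ho]; exact pow_orderOf_eq_one _
    rw [Nat.cast_add, Nat.cast_pow, Nat.cast_one, h6] at h5
    have h7 : ((2 : ℕ) : ZMod p) = 0 := by
      rw [← h5]
      norm_num
    rw [ZMod.natCast_eq_zero_iff] at h7
    exact hp2 ((Nat.prime_dvd_prime_iff_eq hp Nat.prime_two).1 h7)
  refine (Nat.Coprime.pow_left b ?_).dvd_of_dvd_mul_right h1
  exact Nat.Coprime.mul_right ((Nat.Prime.coprime_iff_not_dvd hp).2 h3) ((Nat.Prime.coprime_iff_not_dvd hp).2 h4)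

section frame

variable {F : Type u} [Field F] [Finite F] {V : Type v} [AddCommGroup V] [Module F V] [Finite V]
  [FiniteDimensional F V] {p : ℕ} [hp : Fact p.Prime] {τ : F →+* F} {B : V → V → F} {G P : Subgroup (V ≃ₗ[F] V)}

/-- a subgroup acting freely on `M ∖ 0` -/
theorem card_dvd_pow_sub {Q : Subgroup (V ≃ₗ[F] V)} {M : Submodule F V} (hM : ∀ y ∈ Q, ∀ m ∈ M, y m ∈ M)
    (hf : ∀ y ∈ Q, ∀ m ∈ M, m ≠ 0 → y m = m → y = 1) : Nat.card Q ∣ Nat.card F ^ finrank F M - 1 := by
  classical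
  have hfin : Finite (V ≃ₗ[F] V) := Finite.of_injective (fun g : V ≃ₗ[F] V => (g : V → V)) DFunLike.coe_injective
  let X := {m : V // m ∈ M ∧ m ≠ 0}
  let _ : MulAction Q X :=
    { smul := fun y m => ⟨(y : V ≃ₗ[F] V) m, hM y y.2 m m.2.1, fun h => m.2.2 ((map_eq_zero_iff _ (y : V ≃ₗ[F] V).injective).1 h)⟩
      one_smul := fun m => Subtype.ext rfl
      mul_smul := fun y z m => Subtype.ext rfl }
  have hs : ∀ (y : Q) (m : X), ((y • m : X) : V) = (y : V ≃ₗ[F] V) m := fun _ _ => rfl
  have h1 : Nat.card Q ∣ Nat.card X := card_dvd_of_free fun g x hgx => by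
    apply Subtype.ext
    refine hf g g.2 x x.2.1 x.2.2 ?_
    rw [← hs, hgx]
  have h2 : Nat.card M = Nat.card X + 1 := by
    have e : M ≃ Option X :=
      { toFun := fun m => if h : (m : V) = 0 then none else some ⟨m, m.2, h⟩
        invFun := fun o => match o with
          | none => 0
          | some x => ⟨x, x.2.1⟩
        left_inv := fun m => by
          by_cases h : (m : V) = 0
          · simp only [h, dite_true]
            exact Subtype.ext h.symm
          · simp only [h, dite_false]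
        right_inv := fun o => by
          rcases o with _ | x
          · simp
          · simp [x.2.2] }
    rw [Nat.card_congr e, Finite.card_option]
  have h3 : Nat.card M = Nat.card F ^ finrank F M := Module.natCard_eq_pow_finrank
  rw [← h3, h2, Nat.add_sub_cancel]
  exact h1

/-- the fixed space of an element -/
theorem irr_fix (hab : ∀ x ∈ P, ∀ y ∈ P, x * y = y * x) {M : Submodule F V} (hM : Irr P M) {y : V ≃ₗ[F] V} (hy : y ∈ P)
    {m : V} (hm : m ∈ M) (hm0 : m ≠ 0) (hym : y m = m) : ∀ m ∈ M, y m = m := by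
  let Y : Submodule F V :=
    { carrier := {m | m ∈ M ∧ y m = m}
      add_mem' := fun {a b} ha hb => ⟨M.add_mem ha.1 hb.1, by rw [map_add, ha.2, hb.2]⟩
      zero_mem' := ⟨M.zero_mem, map_zero _⟩
      smul_mem' := fun c a ha => ⟨M.smul_mem c ha.1, by rw [map_smul, ha.2]⟩ }
  have hY : Y = ⊥ ∨ Y = M := by
    refine hM.min Y (fun m hm => hm.1) fun g hg m hm => ⟨hM.inv g hg m hm.1, ?_⟩
    have h1 : y (g m) = g (y m) := by
      rw [← LinearEquiv.mul_apply, ← LinearEquiv.mul_apply, hab y hy g hg]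
    rw [h1, hm.2]
  rcases hY with hY | hY
  · exfalso
    have h1 : m ∈ Y := ⟨hm, hym⟩
    rw [hY] at h1
    exact hm0 h1
  · intro m hm
    rw [← hY] at hm
    exact hm.2

/-- an element of order `p` -/
theorem exists_pelt {Q : Subgroup (V ≃ₗ[F] V)} (hQ : IsPGroup p Q) {y : V ≃ₗ[F] V} (hy : y ∈ Q) (hy1 : y ≠ 1) :
    ∃ k : ℕ, y ^ k ≠ 1 ∧ (y ^ k) ^ p = 1 := by
  have hfin : Finite (V ≃ₗ[F] V) := Finite.of_injective (fun g : V ≃ₗ[F] V => (g : V → V)) DFunLike.coe_injective
  obtain ⟨k, hk⟩ := dvd_orderOf hQ hy hy1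
  have hord : 0 < orderOf y := orderOf_pos y
  refine ⟨k, fun h1 => ?_, by rw [← pow_mul, mul_comm, ← hk, pow_orderOf_eq_one]⟩
  have h2 := orderOf_dvd_of_pow_eq_one h1
  rw [hk] at h2 hord
  have hk0 : 0 < k := by
    rcases Nat.eq_zero_or_pos k with h0 | h0
    · rw [h0, mul_zero] at hord; omega
    · exact h0
  have h3 := Nat.le_of_dvd hk0 h2
  have h4 := hp.out.two_le
  nlinarith

/-- irreducible faithful modules of the blocks -/
theorem block_irr (hP : IsPGroup p P) (hab : ∀ x ∈ P, ∀ y ∈ P, x * y = y * x) {Q : Subgroup (V ≃ₗ[F] V)} (hQP : Q ≤ P)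
    (hQ1 : Q ≠ ⊥) {M : Submodule F V} (hM : Irr P M) (hf : ∀ y ∈ Q, (∀ m ∈ M, y m = m) → y = 1) :
    orderOf ((Nat.card F : ℕ) : ZMod p) ∣ finrank F M ∧ Nat.card Q ∣ Nat.card F ^ finrank F M - 1 := by
  constructor
  · obtain ⟨⟨y, hy⟩, hy1'⟩ := Subgroup.ne_bot_iff_exists_ne_one.1 hQ1
    have hy1 : y ≠ 1 := fun h => hy1' (Subtype.ext h)
    obtain ⟨k, hk1, hkp⟩ := exists_pelt hP (hQP hy) hy1
    refine irr_dvd hab hM (hQP (Q.pow_mem hy k)) hkp ?_
    by_contra hcon
    push Not at hcon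
    exact hk1 (hf _ (Q.pow_mem hy k) hcon)
  · refine card_dvd_pow_sub (fun y hy => hM.inv y (hQP hy)) fun y hy m hm hm0 hym => ?_
    exact hf y hy (irr_fix hab hM (hQP hy) hm hm0 hym)

/-- the irreducible faithful submodule of a block has dimension `2 c` or `4 c` and `|Q_i| ∣ p ^ a` -/
theorem block_card (hp2 : p ≠ 2) (hpF : (p : F) ≠ 0) {h : SplF τ B G} (hP : Syl p G P)
    (hab : ∀ x ∈ P, ∀ y ∈ P, x * y = y * x) {n : ℕ} {D : Fin n → Submodule F V} (hD : Frm h P D) {a c : ℕ}
    (hc : 0 < c) (ho : orderOf ((Nat.card F : ℕ) : ZMod p) = 2 * c) (ha : ¬ p ^ (a + 1) ∣ Nat.card F ^ c + 1)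
    (hdim : finrank F V < 6 * c) (i : Fin n) :
    2 * c ≤ finrank F (D i) ∧ Nat.card (triv P (h.perp (D i))) ≤ p ^ a := by
  have hfin : Finite (V ≃ₗ[F] V) := Finite.of_injective (fun g : V ≃ₗ[F] V => (g : V → V)) DFunLike.coe_injective
  have hdec := hD.dec hpF hP
  obtain ⟨M, hMD, hM, hf⟩ := hdec.irr i
  have hle : triv P (h.perp (D i)) ≤ P := fun y hy => hy.1
  obtain ⟨h1, h2⟩ := block_irr hP.isP hab hle (hdec.ne i) hM fun y hy hy' => hf y hy.1 hy.2 hy'
  rw [ho] at h1
  have hM0 : 0 < finrank F M := by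
    rw [Nat.pos_iff_ne_zero]
    intro h0
    exact hM.ne (Submodule.finrank_eq_zero.1 h0)
  have h3 : 2 * c ≤ finrank F M := Nat.le_of_dvd hM0 h1
  refine ⟨h3.trans (Submodule.finrank_mono hMD), ?_⟩
  have h4 : finrank F M < 6 * c := (Submodule.finrank_le M).trans_lt hdim
  have hd : finrank F M = 2 * c ∨ finrank F M = 4 * c := by
    obtain ⟨k, hk⟩ := h1
    have hk3 : k < 3 := by
      by_contra hcon
      have : 3 ≤ k := by omega
      have := Nat.mul_le_mul_left (2 * c) this
      omega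
    interval_cases k
    · omega
    · left; omega
    · right; omega
  have h5 : IsPGroup p (triv P (h.perp (D i))) := hP.isP.to_le hle
  obtain ⟨b, hb⟩ := IsPGroup.iff_card.1 h5
  rw [hb] at h2 ⊢
  have h6 := pow_dvd_of hp.out hp2 hc ho hd h2
  apply Nat.pow_le_pow_right hp.out.pos
  by_contra hcon
  exact ha ((pow_dvd_pow p (by omega)).trans h6)

/-- **the frame with two blocks** -/
theorem exists_twoB (hp2 : p ≠ 2) (hpF : (p : F) ≠ 0) (h : SplF τ B G) (hP : Syl p G P)
    {a c : ℕ} (ha0 : 0 < a) (hc : 0 < c) (ho : orderOf ((Nat.card F : ℕ) : ZMod p) = 2 * c)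
    (ha : ¬ p ^ (a + 1) ∣ Nat.card F ^ c + 1) (hdim : finrank F V < 6 * c) (hPc : Nat.card P = p ^ (2 * a)) :
    ∃ D : Fin 2 → Submodule F V, TwoB p a c h P D := by
  have hfin : Finite (V ≃ₗ[F] V) := Finite.of_injective (fun g : V ≃ₗ[F] V => (g : V → V)) DFunLike.coe_injective
  have hp3 : 3 ≤ p := by
    have := hp.out.two_le
    omega
  -- abelian
  have hab : ∀ x ∈ P, ∀ y ∈ P, x * y = y * x := by
    by_contra hna
    obtain ⟨r, s, hr, hchar, hτ⟩ := exists_frob τ
    have h1 := hP.le_of_nonab hp2 hpF h hτ hna (E := 2 * c) (by rw [ho]; omega) (fun _ => by rw [ho])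
    have h2 := Nat.mul_le_mul_right (2 * c) hp3
    omega
  obtain ⟨n, D, hD⟩ := hP.exists_frm hpF h
  have hdec := hD.dec hpF hP
  have hbl := block_card hp2 hpF hP hab hD hc ho ha hdim
  -- two blocks have dimension less than `6 c`
  have hsum : ∀ i j, i ≠ j → finrank F (D i) + finrank F (D j) ≤ finrank F V := by
    intro i j hij
    have e3 := Submodule.finrank_add_eq_of_isCompl (hdec.compl i)
    have e4 := Submodule.finrank_mono (hdec.le i j hij)
    omega
  have hn2 : n ≤ 2 := by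
    by_contra hcon
    let i : Fin n := ⟨0, by omega⟩
    let j : Fin n := ⟨1, by omega⟩
    let k : Fin n := ⟨2, by omega⟩
    have hij : i ≠ j := fun h1 => by
      have h2 : (0 : ℕ) = 1 := congrArg Fin.val h1
      omega
    have hik : i ≠ k := fun h1 => by
      have h2 : (0 : ℕ) = 2 := congrArg Fin.val h1
      omega
    have hjk : j ≠ k := fun h1 => by
      have h2 : (1 : ℕ) = 2 := congrArg Fin.val h1
      omega
    have e1 := (hbl i).1
    have e2 := (hbl j).1
    have e3 := (hbl k).1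
    have e4 := Submodule.finrank_add_eq_of_isCompl (hdec.compl i)
    have h1 : D j ⊔ D k ≤ h.perp (D i) := sup_le (hdec.le i j hij) (hdec.le i k hik)
    have h2 : D j ⊓ D k = ⊥ := by
      rw [eq_bot_iff, ← (hdec.compl j).inf_eq_bot]
      exact inf_le_inf_left _ (hdec.le j k hjk)
    have e5 := Submodule.finrank_mono h1
    have e6 := Submodule.finrank_sup_add_finrank_inf_eq (D j) (D k)
    rw [h2, finrank_bot] at e6
    omega
  -- the product
  have hprod : Nat.card P ≤ ∏ i, Nat.card (triv P (h.perp (D i))) := by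
    rw [← Nat.card_pi]
    let φ : P → ∀ i, triv P (h.perp (D i)) := fun y i =>
      ⟨cutH (hdec.compl i) (hdec.inv i) y, hdec.cut_mem i y⟩
    refine Nat.card_le_card_of_injective φ ?_
    intro y z hyz
    have h1 : ∀ i, ∀ v ∈ D i, (y : V ≃ₗ[F] V) v = (z : V ≃ₗ[F] V) v := by
      intro i v hv
      have h2 := congrArg (fun g : V ≃ₗ[F] V => g v) (congrArg Subtype.val (congrFun hyz i))
      change cutH (hdec.compl i) (hdec.inv i) y v = cutH (hdec.compl i) (hdec.inv i) z v at h2
      rwa [cutH_left _ _ _ hv, cutH_left _ _ _ hv] at h2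
    have h3 : (z : V ≃ₗ[F] V)⁻¹ * y = 1 := by
      refine hD.tot hpF hP (P.mul_mem (P.inv_mem z.2) y.2) fun i v hv => ?_
      rw [LinearEquiv.mul_apply, h1 i v hv]
      exact inv_mul_self_apply _ _
    rw [inv_mul_eq_one] at h3
    exact Subtype.ext h3.symm
  have hn : n = 2 := by
    by_contra hcon
    have hn1 : n ≤ 1 := by omega
    have h1 : ∏ i, Nat.card (triv P (h.perp (D i))) ≤ ∏ _i : Fin n, p ^ a :=
      Finset.prod_le_prod' fun i _ => (hbl i).2
    rw [Finset.prod_const, Finset.card_univ, Fintype.card_fin, ← pow_mul] at h1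
    rw [hPc] at hprod
    have h2 := (Nat.pow_le_pow_iff_right hp.out.one_lt).1 (hprod.trans h1)
    have h3 := Nat.mul_le_mul_left a hn1
    omega
  subst hn
  have hcard : ∀ i, Nat.card (triv P (h.perp (D i))) = p ^ a := by
    rw [hPc, Fin.prod_univ_two, mul_comm 2 a, pow_mul, pow_two] at hprod
    have h0 := (hbl 0).2
    have h1 := (hbl 1).2
    have hpa : 0 < p ^ a := Nat.pow_pos hp.out.pos
    have e0 : Nat.card (triv P (h.perp (D 0))) = p ^ a := by
      by_contra hne
      have h2 := lt_of_le_of_ne h0 hne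
      have h3 := Nat.mul_lt_mul_of_lt_of_le h2 h1 hpa
      omega
    have e1 : Nat.card (triv P (h.perp (D 1))) = p ^ a := by
      by_contra hne
      have h2 := lt_of_le_of_ne h1 hne
      have h3 := Nat.mul_lt_mul_of_le_of_lt h0 h2 hpa
      omega
    intro i
    fin_cases i
    · exact e0
    · exact e1
  have hoth : ∀ i : Fin 2, finrank F (D i) < 4 * c := by
    intro i
    fin_cases i
    · have e1 := (hbl 1).1
      have e2 := hsum 0 1 (by decide)
      change finrank F (D 0) < 4 * c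
      omega
    · have e1 := (hbl 0).1
      have e2 := hsum 0 1 (by decide)
      change finrank F (D 1) < 4 * c
      omega
  have hirr : ∀ i, Irr P (D i) := by
    intro i
    rcases (hD.minS i).irr_or_two hpF h hP.le hP.isP with h2 | ⟨M, N, h2⟩
    · exact h2
    · exfalso
      have hfM : ∀ y ∈ P, (∀ v ∈ h.perp (D i), y v = v) → (∀ v ∈ M, y v = v) → y = 1 := by
        intro y hy h3 h4
        refine equiv_ext_compl (hdec.compl i) (fun v hv => ?_) h3
        rw [← h2.sup] at hv
        obtain ⟨m, hm, w, hw, rfl⟩ := Submodule.mem_sup.1 hv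
        rw [map_add, h4 m hm]
        have h5 : y w - w = 0 := by
          refine h2.pN _ (N.sub_mem (h2.irrN.inv y hy w hw) hw) fun m' hm' => ?_
          have h6 := h.pres y (hP.le hy) w m'
          rw [h4 m' hm'] at h6
          rw [h.sub_left, h6, sub_self]
        rw [sub_eq_zero.1 h5]
        rfl
      have hfN : ∀ y ∈ P, (∀ v ∈ h.perp (D i), y v = v) → (∀ v ∈ N, y v = v) → y = 1 := by
        intro y hy h3 h4
        refine equiv_ext_compl (hdec.compl i) (fun v hv => ?_) h3
        rw [← h2.sup] at hv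
        obtain ⟨m, hm, w, hw, rfl⟩ := Submodule.mem_sup.1 hv
        rw [map_add, h4 w hw]
        have h5 : y m - m = 0 := by
          refine h2.pM _ (M.sub_mem (h2.irrM.inv y hy m hm) hm) fun m' hm' => ?_
          have h6 := h.pres y (hP.le hy) m m'
          rw [h4 m' hm'] at h6
          rw [h.sub_left, h6, sub_self]
        rw [sub_eq_zero.1 h5]
        rfl
      have key : ∀ N : Submodule F V, Irr P N → (∀ y ∈ P, (∀ v ∈ h.perp (D i), y v = v) → (∀ v ∈ N, y v = v) → y = 1) →
          2 * c ≤ finrank F N := by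
        intro N hN hfN
        have h1 := (block_irr hP.isP hab (fun y hy => hy.1 : triv P (h.perp (D i)) ≤ P) (hdec.ne i) hN
            fun y hy hy' => hfN y hy.1 hy.2 hy').1
        rw [ho] at h1
        refine Nat.le_of_dvd ?_ h1
        rw [Nat.pos_iff_ne_zero]
        intro h0
        exact hN.ne (Submodule.finrank_eq_zero.1 h0)
      have e1 := key M h2.irrM hfM
      have e2 := key N h2.irrN hfN
      have e3 := Submodule.finrank_sup_add_finrank_inf_eq M N
      rw [h2.sup, h2.inf, finrank_bot] at e3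
      have e4 := hoth i
      omega
  have hfD : ∀ i, ∀ y ∈ triv P (h.perp (D i)), (∀ v ∈ D i, y v = v) → y = 1 :=
    fun i y hy h4 => equiv_ext_compl (hdec.compl i) h4 hy.2
  have hdimD : ∀ i, finrank F (D i) = 2 * c := by
    intro i
    obtain ⟨⟨k, hk⟩, -⟩ := block_irr hP.isP hab (fun y hy => hy.1 : triv P (h.perp (D i)) ≤ P) (hdec.ne i) (hirr i) (hfD i)
    rw [ho] at hk
    have e1 := (hbl i).1
    have e2 := hoth i
    have hk2 : k < 2 := by
      by_contra hcon
      have := Nat.mul_le_mul_left (2 * c) (show 2 ≤ k by omega)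
      omega
    interval_cases k
    · omega
    · omega
  refine ⟨D, hP, hab, hD, hdec, hdimD, hcard, fun i y hy hy1 X hX hXy => ?_⟩
  obtain ⟨k, hk1, hkp⟩ := exists_pelt hP.isP hy.1 hy1
  have hyk : y ^ k ∈ triv P (h.perp (D i)) := Subgroup.pow_mem _ hy k
  have hT : (toE (y ^ k)) ^ p = 1 := by
    apply LinearMap.ext
    intro v
    have h1 := Cfsg.Agent.H324.AP.aeval_X_pow (y ^ k) p v
    rw [map_pow, Polynomial.aeval_X] at h1
    rw [h1, hkp]
    rfl
  have hXk : ∀ m ∈ X, (toE (y ^ k)) m ∈ X := by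
    intro m hm
    have h1 := aeval_mem (z := y) hXy (Polynomial.X ^ k : F[X]) hm
    rw [Cfsg.Agent.H324.AP.aeval_X_pow] at h1
    exact h1
  have h1 := Cfsg.Agent.H538.GlCyc.dvd_finrank_sub hT X hXk fun v hv hfix => by
    by_contra hv0
    exact hk1 (hfD i _ hyk (irr_fix hab (hirr i) hyk.1 (hX hv) hv0 hfix))
  rw [ho, ← hdimD i] at h1
  by_cases h0 : finrank F X = 0
  · left
    exact Submodule.finrank_eq_zero.1 h0
  · right
    exact Submodule.eq_of_le_of_finrank_le hX (Nat.le_of_dvd (Nat.pos_of_ne_zero h0) h1)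

end frame

end Cfsg.Agent.H920.HT
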